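import Mathlib
import Cfsg.Prelude.Def_LieRecognition

/-!
Central extensions of the additive group of a field `F` by itself in which the squaring map is a
prescribed function `N`.  Two finite such extensions are isomorphic.  The type-A group is one.
-/

set_option autoImplicit false

namespace Cfsg.Agent.Lib.Helper36

/-- a central extension of `(F,+)` by `(F,+)` with squaring map `N` -/
structure QuadExt (F : Type*) [Field F] (N : F → F) (P : Type*) [Group P] where
  v : P → F
  e : F → P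
  v_mul : ∀ x y, v (x * y) = v x + v y
  v_surj : Function.Surjective v
  e_add : ∀ a b, e (a + b) = e a * e b
  e_inj : Function.Injective e
  e_cen : ∀ a x, e a * x = x * e a
  ker : ∀ x, v x = 0 ↔ ∃ a, e a = x
  sq : ∀ x, x * x = e (N (v x))

namespace QuadExt

variable {F : Type*} [Field F] {N : F → F} {P Q : Type*} [Group P] [Group Q]

theorem e_zero (A : QuadExt F N P) : A.e 0 = 1 := by
  have := A.e_add 0 0
  rw [add_zero] at this
  exact left_eq_mul.mp this

theorem e_neg (A : QuadExt F N P) (a : F) : A.e (-a) = (A.e a)⁻¹ := by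
  rw [eq_inv_iff_mul_eq_one, ← A.e_add, neg_add_cancel, A.e_zero]

theorem v_one (A : QuadExt F N P) : A.v 1 = 0 := by
  have := A.v_mul 1 1
  rw [mul_one] at this
  exact left_eq_add.mp this

theorem v_inv (A : QuadExt F N P) (x : P) : A.v x⁻¹ = - A.v x := by
  rw [eq_neg_iff_add_eq_zero, ← A.v_mul, inv_mul_cancel, A.v_one]

theorem v_e (A : QuadExt F N P) (a : F) : A.v (A.e a) = 0 := (A.ker _).mpr ⟨a, rfl⟩

theorem inv_eq (A : QuadExt F N P) (x : P) : x⁻¹ = x * A.e (- N (A.v x)) := by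
  rw [inv_eq_iff_mul_eq_one, ← mul_assoc, A.sq, ← A.e_add, add_neg_cancel, A.e_zero]

/-- commutators are determined by `N` -/
theorem comm_eq (A : QuadExt F N P) (x y : P) :
    x⁻¹ * y⁻¹ * x * y = A.e (N (A.v x + A.v y) - N (A.v x) - N (A.v y)) := by
  have h1 : x * y * (x * y) = A.e (N (A.v x + A.v y)) := by rw [A.sq, A.v_mul]
  rw [A.inv_eq x, A.inv_eq y]
  have h2 : x * A.e (-N (A.v x)) * (y * A.e (-N (A.v y))) * x * y
      = x * y * (x * y) * (A.e (-N (A.v x)) * A.e (-N (A.v y))) := by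
    have ha := A.e_cen (-N (A.v x))
    have hb := A.e_cen (-N (A.v y))
    generalize A.e (-N (A.v x)) = a at ha ⊢
    generalize A.e (-N (A.v y)) = b at hb ⊢
    calc x * a * (y * b) * x * y = x * (a * (y * (b * (x * y)))) := by simp only [mul_assoc]
      _ = x * (a * (y * ((x * y) * b))) := by rw [hb]
      _ = x * ((y * ((x * y) * b)) * a) := by rw [ha]
      _ = x * y * (x * y) * (b * a) := by simp only [mul_assoc]
      _ = x * y * (x * y) * (a * b) := by rw [ha b]
  rw [h2, h1, ← A.e_add, ← A.e_add]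
  congr 1
  ring

/-- **Uniqueness of the extension.** -/
theorem iso [Finite P] [Finite Q] (A : QuadExt F N P) (B : QuadExt F N Q) : Nonempty (P ≃* Q) := by
  classical
  let S : Set (Subgroup (P × Q)) := {C | (∀ z, (A.e z, B.e z) ∈ C) ∧ (∀ u ∈ C, A.v u.1 = B.v u.2) ∧
    (∀ z, (A.e z, (1 : Q)) ∈ C → z = 0)}
  let Δ : Subgroup (P × Q) :=
    { carrier := {u | ∃ z, u = (A.e z, B.e z)}
      one_mem' := ⟨0, by rw [A.e_zero, B.e_zero]; rfl⟩
      mul_mem' := by
        rintro _ _ ⟨z, rfl⟩ ⟨z', rfl⟩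
        exact ⟨z + z', by rw [A.e_add, B.e_add]; rfl⟩
      inv_mem' := by
        rintro _ ⟨z, rfl⟩
        exact ⟨-z, by rw [A.e_neg, B.e_neg]; rfl⟩ }
  have hΔS : Δ ∈ S := by
    refine ⟨fun z => ⟨z, rfl⟩, ?_, ?_⟩
    · rintro _ ⟨z, rfl⟩
      rw [A.v_e, B.v_e]
    · rintro z ⟨z', hz'⟩
      have h1 : B.e z' = 1 := (congrArg Prod.snd hz').symm
      have h2 : z' = 0 := B.e_inj (h1.trans B.e_zero.symm)
      have h3 : A.e z = A.e z' := congrArg Prod.fst hz'
      rw [A.e_inj h3, h2]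
  obtain ⟨C, hC⟩ := (Set.toFinite S).exists_maximal ⟨Δ, hΔS⟩
  obtain ⟨⟨hC1, hC2, hC3⟩, hCmax⟩ := hC
  -- conjugation by elements of the fibre product preserves `C`
  have hconj : ∀ u : P × Q, A.v u.1 = B.v u.2 → ∀ c ∈ C, u⁻¹ * c * u ∈ C := by
    intro u hu c hc
    have h1 : u⁻¹ * c * u = c * (c⁻¹ * u⁻¹ * c * u) := by
      simp only [mul_assoc, mul_inv_cancel_left]
    rw [h1]
    apply C.mul_mem hc
    have h2 : c⁻¹ * u⁻¹ * c * u = (A.e (N (A.v c.1 + A.v u.1) - N (A.v c.1) - N (A.v u.1)),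
        B.e (N (A.v c.1 + A.v u.1) - N (A.v c.1) - N (A.v u.1))) := by
      apply Prod.ext
      · exact A.comm_eq c.1 u.1
      · change c.2⁻¹ * u.2⁻¹ * c.2 * u.2 = _
        rw [B.comm_eq, hC2 c hc, hu]
    rw [h2]
    exact hC1 _
  have hsq : ∀ u : P × Q, A.v u.1 = B.v u.2 → u * u ∈ C := by
    intro u hu
    have : u * u = (A.e (N (A.v u.1)), B.e (N (A.v u.1))) := by
      apply Prod.ext
      · exact A.sq u.1
      · change u.2 * u.2 = _
        rw [B.sq, hu]
    rw [this]
    exact hC1 _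
  -- `C` covers the fibre product modulo the first kernel
  have hcover : ∀ u : P × Q, A.v u.1 = B.v u.2 → ∃ z, u * (A.e z, (1 : Q)) ∈ C := by
    intro u hu
    by_contra hno
    push Not at hno
    let C' : Subgroup (P × Q) :=
      { carrier := {x | x ∈ C ∨ u⁻¹ * x ∈ C}
        one_mem' := Or.inl C.one_mem
        mul_mem' := by
          rintro x y (hx | hx) (hy | hy)
          · exact Or.inl (C.mul_mem hx hy)
          · right
            have : u⁻¹ * (x * y) = (u⁻¹ * x * u) * (u⁻¹ * y) := by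
              simp only [mul_assoc, mul_inv_cancel_left]
            rw [this]
            exact C.mul_mem (hconj u hu x hx) hy
          · right
            rw [← mul_assoc]
            exact C.mul_mem hx hy
          · left
            have : x * y = (u * u) * (u⁻¹ * (u⁻¹ * x) * u) * (u⁻¹ * y) := by
              simp only [mul_assoc, mul_inv_cancel_left]
            rw [this]
            exact C.mul_mem (C.mul_mem (hsq u hu) (hconj u hu _ hx)) hy
        inv_mem' := by
          rintro x (hx | hx)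
          · exact Or.inl (C.inv_mem hx)
          · right
            have : u⁻¹ * x⁻¹ = (u⁻¹ * (u⁻¹ * x)⁻¹ * u) * (u * u)⁻¹ := by
              simp only [mul_assoc, mul_inv_rev, inv_inv, mul_inv_cancel_left, mul_inv_cancel, mul_one]
            rw [this]
            exact C.mul_mem (hconj u hu _ (C.inv_mem hx)) (C.inv_mem (hsq u hu)) }
    have hC'mem : ∀ x, x ∈ C' ↔ x ∈ C ∨ u⁻¹ * x ∈ C := fun _ => Iff.rfl
    have hle : C ≤ C' := fun x hx => Or.inl hx
    have hC'S : C' ∈ S := by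
      refine ⟨fun z => hle (hC1 z), ?_, ?_⟩
      · rintro x (hx | hx)
        · exact hC2 x hx
        · have := hC2 _ hx
          change A.v (u.1⁻¹ * x.1) = B.v (u.2⁻¹ * x.2) at this
          rw [A.v_mul, B.v_mul, A.v_inv, B.v_inv, hu] at this
          exact add_left_cancel this
      · rintro z (hz | hz)
        · exact hC3 z hz
        · exfalso
          apply hno (-z)
          have h1 := C.inv_mem hz
          have h2 : (u⁻¹ * (A.e z, (1 : Q)))⁻¹ = u * (A.e (-z), (1 : Q)) := by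
            rw [mul_inv_rev, inv_inv]
            apply Prod.ext
            · change (A.e z)⁻¹ * u.1 = u.1 * A.e (-z)
              rw [← A.e_neg, A.e_cen]
            · change (1 : Q)⁻¹ * u.2 = u.2 * 1
              rw [inv_one, one_mul, mul_one]
          rwa [h2] at h1
    have hC'le := hCmax hC'S hle
    have hu' : u ∈ C := hC'le (Or.inr (by rw [inv_mul_cancel]; exact C.one_mem))
    apply hno 0
    rw [A.e_zero]
    exact (mul_one u).symm ▸ hu'
  have hP : ∀ g : P, ∃ a : Q, (g, a) ∈ C := by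
    intro g
    obtain ⟨a, ha⟩ := B.v_surj (A.v g)
    obtain ⟨z, hz⟩ := hcover (g, a) ha.symm
    refine ⟨a * B.e (-z), ?_⟩
    have := C.mul_mem hz (hC1 (-z))
    have h2 : (g, a) * (A.e z, (1 : Q)) * (A.e (-z), B.e (-z)) = (g, a * B.e (-z)) := by
      apply Prod.ext
      · change g * A.e z * A.e (-z) = g
        rw [mul_assoc, ← A.e_add, add_neg_cancel, A.e_zero, mul_one]
      · change a * 1 * B.e (-z) = a * B.e (-z)
        rw [mul_one]
    rwa [h2] at this
  have hQ : ∀ a : Q, ∃ g : P, (g, a) ∈ C := by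
    intro a
    obtain ⟨g, hg⟩ := A.v_surj (B.v a)
    obtain ⟨z, hz⟩ := hcover (g, a) hg
    refine ⟨g * A.e z, ?_⟩
    have h2 : (g, a) * (A.e z, (1 : Q)) = (g * A.e z, a) := by
      apply Prod.ext
      · rfl
      · exact mul_one a
    rwa [h2] at hz
  have huniqQ : ∀ g a a', (g, a) ∈ C → (g, a') ∈ C → a = a' := by
    intro g a a' h1 h2
    have h3 := C.mul_mem (C.inv_mem h1) h2
    have h4 : ((g, a) : P × Q)⁻¹ * (g, a') = (1, a⁻¹ * a') := by
      apply Prod.ext
      · exact inv_mul_cancel g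
      · rfl
    rw [h4] at h3
    have h5 := hC2 _ h3
    change A.v 1 = B.v (a⁻¹ * a') at h5
    rw [A.v_one] at h5
    obtain ⟨z, hz⟩ := (B.ker _).mp h5.symm
    have h6 := C.mul_mem h3 (hC1 (-z))
    have h7 : ((1, a⁻¹ * a') : P × Q) * (A.e (-z), B.e (-z)) = (A.e (-z), 1) := by
      apply Prod.ext
      · exact one_mul _
      · change a⁻¹ * a' * B.e (-z) = 1
        rw [← hz, ← B.e_add, add_neg_cancel, B.e_zero]
    rw [h7] at h6
    have h8 : z = 0 := by
      have := hC3 _ h6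
      exact neg_eq_zero.mp this
    rw [h8, B.e_zero] at hz
    exact inv_mul_eq_one.mp hz.symm
  have huniqP : ∀ g g' a, (g, a) ∈ C → (g', a) ∈ C → g = g' := by
    intro g g' a h1 h2
    have h3 := C.mul_mem (C.inv_mem h1) h2
    have h4 : ((g, a) : P × Q)⁻¹ * (g', a) = (g⁻¹ * g', 1) := by
      apply Prod.ext
      · rfl
      · exact inv_mul_cancel a
    rw [h4] at h3
    have h5 := hC2 _ h3
    change A.v (g⁻¹ * g') = B.v 1 at h5
    rw [B.v_one] at h5
    obtain ⟨z, hz⟩ := (A.ker _).mp h5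
    rw [← hz] at h3
    have h8 := hC3 _ h3
    rw [h8, A.e_zero] at hz
    exact inv_mul_eq_one.mp hz.symm
  choose f hf using hP
  let fh : P →* Q := MonoidHom.mk' f (by
    intro x y
    exact huniqQ _ _ _ (hf (x * y)) (C.mul_mem (hf x) (hf y)))
  have hfh : ∀ x, fh x = f x := fun _ => rfl
  refine ⟨MulEquiv.ofBijective fh ⟨?_, ?_⟩⟩
  · intro x y hxy
    rw [hfh, hfh] at hxy
    have h1 := hf x
    rw [hxy] at h1
    exact huniqP _ _ _ h1 (hf y)
  · intro a
    obtain ⟨g, hg⟩ := hQ a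
    exact ⟨g, huniqQ _ _ _ (hf g) hg⟩

end QuadExt

section TypeA

open Matrix

variable {F : Type*} [Field F]

/-- the matrices of the type-A group -/
noncomputable def sMat (φ : F →+* F) (x y : F) : GL (Fin 3) F :=
  Matrix.GeneralLinearGroup.mkOfDetNeZero !![1, 0, 0; x, 1, 0; y, φ x, 1]
    (by simp [Matrix.det_fin_three])

theorem sMat_val (φ : F →+* F) (x y : F) :
    ((sMat φ x y : GL (Fin 3) F) : Matrix (Fin 3) (Fin 3) F) = !![1, 0, 0; x, 1, 0; y, φ x, 1] := rfl

theorem sMat_mul (φ : F →+* F) (x y x' y' : F) :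
    sMat φ x y * sMat φ x' y' = sMat φ (x + x') (y + y' + φ x * x') := by
  apply Units.ext
  rw [Units.val_mul, sMat_val, sMat_val, sMat_val]
  ext i j
  fin_cases i <;> fin_cases j <;> simp [Matrix.mul_apply, Fin.sum_univ_three]
  ring

theorem sMat_zero (φ : F →+* F) : sMat φ 0 0 = 1 := by
  apply Units.ext
  rw [sMat_val, Units.val_one]
  ext i j
  fin_cases i <;> fin_cases j <;> simp

theorem sMat_inj (φ : F →+* F) {x y x' y' : F} (h : sMat φ x y = sMat φ x' y') : x = x' ∧ y = y' := by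
  have h1 := congrArg (fun g : GL (Fin 3) F => (g : Matrix (Fin 3) (Fin 3) F)) h
  simp only [sMat_val] at h1
  exact ⟨by simpa using congrFun (congrFun h1 1) 0, by simpa using congrFun (congrFun h1 2) 0⟩

theorem sMat_inv (φ : F →+* F) (x y : F) : (sMat φ x y)⁻¹ = sMat φ (-x) (-y + φ x * x) := by
  rw [inv_eq_iff_mul_eq_one, sMat_mul, ← sMat_zero φ]
  congr 1
  · ring
  · ring

theorem mem_suzukiTypeA (φ : F →+* F) (g : GL (Fin 3) F) :
    g ∈ Cfsg.suzukiTypeA F φ ↔ ∃ x y, g = sMat φ x y := by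
  constructor
  · intro hg
    unfold Cfsg.suzukiTypeA at hg
    induction hg using Subgroup.closure_induction with
    | mem g hg =>
      obtain ⟨x, y, hxy⟩ := hg
      exact ⟨x, y, Units.ext hxy⟩
    | one => exact ⟨0, 0, (sMat_zero φ).symm⟩
    | mul a b _ _ ha hb =>
      obtain ⟨x, y, rfl⟩ := ha
      obtain ⟨x', y', rfl⟩ := hb
      exact ⟨_, _, sMat_mul φ x y x' y'⟩
    | inv a _ ha =>
      obtain ⟨x, y, rfl⟩ := ha
      exact ⟨_, _, sMat_inv φ x y⟩
  · rintro ⟨x, y, rfl⟩
    exact Subgroup.subset_closure ⟨x, y, rfl⟩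

/-- the type-A group as an extension -/
noncomputable def typeAExt [CharP F 2] (φ : F →+* F) :
    QuadExt F (fun t => φ t * t) ↥(Cfsg.suzukiTypeA F φ) where
  v := fun g => ((g : GL (Fin 3) F) : Matrix (Fin 3) (Fin 3) F) 1 0
  e := fun a => ⟨sMat φ 0 a, (mem_suzukiTypeA φ _).mpr ⟨0, a, rfl⟩⟩
  v_mul := by
    rintro ⟨g, hg⟩ ⟨g', hg'⟩
    obtain ⟨x, y, rfl⟩ := (mem_suzukiTypeA φ _).mp hg
    obtain ⟨x', y', rfl⟩ := (mem_suzukiTypeA φ _).mp hg'
    change ((sMat φ x y * sMat φ x' y' : GL (Fin 3) F) : Matrix (Fin 3) (Fin 3) F) 1 0 = _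
    rw [sMat_mul]
    simp [sMat_val]
  v_surj := by
    intro x
    exact ⟨⟨sMat φ x 0, (mem_suzukiTypeA φ _).mpr ⟨x, 0, rfl⟩⟩, by simp [sMat_val]⟩
  e_add := by
    intro a b
    apply Subtype.ext
    change sMat φ 0 (a + b) = sMat φ 0 a * sMat φ 0 b
    rw [sMat_mul]
    congr 1
    · ring
    · rw [map_zero]; ring
  e_inj := by
    intro a b hab
    exact (sMat_inj φ (congrArg Subtype.val hab)).2
  e_cen := by
    rintro a ⟨g, hg⟩
    obtain ⟨x, y, rfl⟩ := (mem_suzukiTypeA φ _).mp hg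
    apply Subtype.ext
    change sMat φ 0 a * sMat φ x y = sMat φ x y * sMat φ 0 a
    rw [sMat_mul, sMat_mul]
    congr 1
    · ring
    · rw [map_zero]; ring
  ker := by
    rintro ⟨g, hg⟩
    obtain ⟨x, y, rfl⟩ := (mem_suzukiTypeA φ _).mp hg
    constructor
    · intro h
      have hx : x = 0 := by simpa [sMat_val] using h
      subst hx
      exact ⟨y, rfl⟩
    · rintro ⟨a, ha⟩
      have := (sMat_inj φ (congrArg Subtype.val ha)).1
      simp [sMat_val, ← this]
  sq := by
    rintro ⟨g, hg⟩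
    obtain ⟨x, y, rfl⟩ := (mem_suzukiTypeA φ _).mp hg
    apply Subtype.ext
    change sMat φ x y * sMat φ x y = sMat φ 0 (φ (((sMat φ x y : GL (Fin 3) F) :
      Matrix (Fin 3) (Fin 3) F) 1 0) * ((sMat φ x y : GL (Fin 3) F) : Matrix (Fin 3) (Fin 3) F) 1 0)
    rw [sMat_mul]
    congr 1
    · exact CharTwo.add_self_eq_zero x
    · rw [CharTwo.add_self_eq_zero y, zero_add]
      simp [sMat_val]

theorem finite_suzukiTypeA [Finite F] (φ : F →+* F) : Finite ↥(Cfsg.suzukiTypeA F φ) := by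
  have : Finite (Matrix (Fin 3) (Fin 3) F) := inferInstance
  have : Finite (GL (Fin 3) F) := Finite.of_injective (fun g : GL (Fin 3) F =>
    (g : Matrix (Fin 3) (Fin 3) F)) Units.val_injective
  infer_instance

end TypeA

end Cfsg.Agent.Lib.Helper36
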