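import Mathlib

/-!
Multiplicative quadratic bijections between finite fields of characteristic two are of the form
`x ↦ φ (ψ x) * ψ x` with `ψ` a field isomorphism and `φ` a field automorphism of odd order.
-/

set_option autoImplicit false

namespace Cfsg.Agent.Lib.Helper36

open Polynomial

theorem odd_choose_two_pow : ∀ (i n : ℕ), n.testBit i = true → Odd (n.choose (2 ^ i)) := by
  intro i
  induction i with
  | zero =>
    intro n h
    rw [Nat.testBit_zero] at h
    rw [pow_zero, Nat.choose_one_right]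
    exact Nat.odd_iff.mpr (by simpa using h)
  | succ i ih =>
    intro n h
    rw [Nat.testBit_succ] at h
    have h1 := ih _ h
    have : Fact (Nat.Prime 2) := ⟨Nat.prime_two⟩
    have h2 := Choose.choose_modEq_choose_mod_mul_choose_div_nat (n := n) (k := 2 ^ (i + 1)) (p := 2)
    have h3 : 2 ^ (i + 1) % 2 = 0 := by rw [pow_succ]; simp
    have h4 : 2 ^ (i + 1) / 2 = 2 ^ i := by rw [pow_succ]; simp
    rw [h3, h4, Nat.choose_zero_right, one_mul] at h2
    rw [Nat.odd_iff] at h1 ⊢
    exact (show _ % 2 = _ % 2 from h2).trans h1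

theorem cast_odd_charTwo {F : Type*} [Field F] [CharP F 2] {n : ℕ} (h : Odd n) : (n : F) = 1 := by
  obtain ⟨m, rfl⟩ := h
  push_cast
  rw [CharTwo.two_eq_zero, zero_mul, zero_add]

theorem poly_zero_of_eval {F : Type*} [Field F] [Fintype F] (p : F[X])
    (hdeg : p.natDegree < Fintype.card F) (h : ∀ x, p.eval x = 0) : p = 0 :=
  eq_zero_of_natDegree_lt_card_of_eval_eq_zero p (f := fun x : F => x) Function.injective_id h hdeg

/-- a quadratic power map has exponent of binary weight at most two -/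
theorem pow_quad {F : Type*} [Field F] [Fintype F] [CharP F 2] (d : ℕ) (hd0 : 0 < d)
    (hdq : d < Fintype.card F)
    (hquad : ∀ x y z : F, (x + y + z) ^ d + (x + y) ^ d + (x + z) ^ d + (y + z) ^ d + x ^ d + y ^ d
      + z ^ d = 0) :
    (∃ i, d = 2 ^ i) ∨ ∃ i j, d = 2 ^ i + 2 ^ j := by
  obtain ⟨i, hi⟩ := Nat.exists_testBit_of_ne_zero hd0.ne'
  have hia : 2 ^ i ≤ d := Nat.ge_two_pow_of_testBit hi
  by_cases hda : d = 2 ^ i
  · exact Or.inl ⟨i, hda⟩
  right
  have hlt : 2 ^ i < d := lt_of_le_of_ne hia (Ne.symm hda)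
  have hapos : 0 < 2 ^ i := by positivity
  obtain ⟨d₁, hd₁⟩ : ∃ d₁, d = 2 ^ i + d₁ := ⟨d - 2 ^ i, by omega⟩
  have hd₁0 : d₁ ≠ 0 := by omega
  have hsub : d - 2 ^ i = d₁ := by omega
  have claim1 : ∀ y z : F, (y + z) ^ d₁ + y ^ d₁ + z ^ d₁ = 0 := by
    intro y z
    let p : F[X] := (X + C (y + z)) ^ d + (X + C y) ^ d + (X + C z) ^ d + X ^ d
      + C ((y + z) ^ d + y ^ d + z ^ d)
    have hp0 : p = 0 := by
      apply poly_zero_of_eval
      · refine lt_of_le_of_lt ?_ hdq
        change natDegree ((X + C (y + z)) ^ d + (X + C y) ^ d + (X + C z) ^ d + X ^ d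
          + C ((y + z) ^ d + y ^ d + z ^ d)) ≤ d
        compute_degree
      · intro x
        change eval x ((X + C (y + z)) ^ d + (X + C y) ^ d + (X + C z) ^ d + X ^ d
          + C ((y + z) ^ d + y ^ d + z ^ d)) = 0
        simp only [eval_add, eval_pow, eval_X, eval_C]
        rw [← hquad x y z, ← add_assoc x y z]
        ring
    have hc := congrArg (fun q : F[X] => q.coeff (2 ^ i)) hp0
    change coeff ((X + C (y + z)) ^ d + (X + C y) ^ d + (X + C z) ^ d + X ^ d
          + C ((y + z) ^ d + y ^ d + z ^ d)) (2 ^ i) = coeff 0 (2 ^ i) at hc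
    simp only [coeff_add, coeff_X_add_C_pow, coeff_X_pow, coeff_C, coeff_zero, hsub,
      cast_odd_charTwo (F := F) (odd_choose_two_pow i d hi), mul_one, if_neg hapos.ne',
      if_neg (Ne.symm hda), add_zero] at hc
    exact hc
  obtain ⟨j, hj⟩ := Nat.exists_testBit_of_ne_zero hd₁0
  have hjb : 2 ^ j ≤ d₁ := Nat.ge_two_pow_of_testBit hj
  refine ⟨i, j, ?_⟩
  by_contra hne
  have hdb : d₁ ≠ 2 ^ j := by omega
  have hbpos : 0 < 2 ^ j := by positivity
  let p : F[X] := (X + C 1) ^ d₁ + X ^ d₁ + C 1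
  have hp0 : p = 0 := by
    apply poly_zero_of_eval
    · refine lt_of_le_of_lt ?_ (lt_of_le_of_lt (show d₁ ≤ d by omega) hdq)
      change natDegree ((X + C 1) ^ d₁ + X ^ d₁ + C 1 : F[X]) ≤ d₁
      compute_degree
    · intro x
      change eval x ((X + C 1) ^ d₁ + X ^ d₁ + C 1 : F[X]) = 0
      simp only [eval_add, eval_pow, eval_X, eval_C]
      have := claim1 x 1
      rw [one_pow] at this
      exact this
  have hc := congrArg (fun q : F[X] => q.coeff (2 ^ j)) hp0
  change coeff ((X + C 1) ^ d₁ + X ^ d₁ + C 1 : F[X]) (2 ^ j) = coeff 0 (2 ^ j) at hc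
  simp only [coeff_add, coeff_X_add_C_pow, coeff_X_pow, coeff_C, coeff_zero, one_pow, one_mul,
    cast_odd_charTwo (F := F) (odd_choose_two_pow j d₁ hj), if_neg hbpos.ne',
    if_neg (Ne.symm hdb), add_zero] at hc
  exact one_ne_zero hc

theorem sum_range_two_mul {M : Type*} [AddCommMonoid M] (f : ℕ → M) : ∀ r : ℕ,
    ∑ i ∈ Finset.range (2 * r), f i = ∑ i ∈ Finset.range r, (f (2 * i) + f (2 * i + 1)) := by
  intro r
  induction r with
  | zero => simp
  | succ r ih =>
    rw [show 2 * (r + 1) = 2 * r + 1 + 1 by ring, Finset.sum_range_succ, Finset.sum_range_succ, ih,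
      Finset.sum_range_succ, add_assoc]

/-- an automorphism of even order of a finite field of characteristic two has an element fixed by its
square and not by itself -/
theorem exists_fixed_sq_not_fixed {F : Type*} [Field F] [Finite F] [CharP F 2] (φ : F ≃+* F)
    (hev : Even (orderOf φ)) : ∃ w : F, φ (φ w) = w ∧ φ w ≠ w := by
  classical
  have hfin : Finite (F ≃+* F) := Finite.of_injective (fun f : F ≃+* F => (f : F → F))
    DFunLike.coe_injective
  obtain ⟨r, hr⟩ := hev
  have hr2 : orderOf φ = 2 * r := by omega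
  by_contra hcon
  push Not at hcon
  have hpow_apply : ∀ (n : ℕ) (x : F), (φ ^ (n + 1)) x = φ ((φ ^ n) x) := by
    intro n x
    rw [pow_succ']; rfl
  have hsum : ∀ w₀ : F, ∑ i ∈ Finset.range (2 * r), (φ ^ i) w₀ = 0 := by
    intro w₀
    have hfix : φ (φ (∑ i ∈ Finset.range r, (φ ^ (2 * i)) w₀)) = ∑ i ∈ Finset.range r, (φ ^ (2 * i)) w₀ := by
      rw [map_sum, map_sum]
      have e1 : ∀ i, φ (φ ((φ ^ (2 * i)) w₀)) = (φ ^ (2 * (i + 1))) w₀ := by
        intro i
        rw [show 2 * (i + 1) = 2 * i + 1 + 1 by ring, hpow_apply, hpow_apply]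
      simp only [e1]
      have e2 := Finset.sum_range_succ (fun i => (φ ^ (2 * i)) w₀) r
      have e3 := Finset.sum_range_succ' (fun i => (φ ^ (2 * i)) w₀) r
      rw [e2] at e3
      have e4 : (φ ^ (2 * r)) w₀ = (φ ^ (2 * 0)) w₀ := by
        rw [← hr2, pow_orderOf_eq_one, mul_zero, pow_zero]
      rw [e4] at e3
      exact (add_right_cancel e3).symm
    have h1 := hcon _ hfix
    rw [sum_range_two_mul, Finset.sum_add_distrib]
    have e5 : ∑ i ∈ Finset.range r, (φ ^ (2 * i + 1)) w₀ = φ (∑ i ∈ Finset.range r, (φ ^ (2 * i)) w₀) := by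
      rw [map_sum]
      exact Finset.sum_congr rfl (fun i _ => hpow_apply _ _)
    rw [e5, h1]
    exact CharTwo.add_self_eq_zero _
  have hli := linearIndependent_monoidHom F F
  have hinj : Function.Injective (fun i : Fin (2 * r) => (((φ ^ (i : ℕ) : F ≃+* F) : F →+* F) : F →* F)) := by
    intro i j hij
    apply Fin.ext
    apply pow_injOn_Iio_orderOf (x := φ)
    · rw [hr2]; exact i.2
    · rw [hr2]; exact j.2
    · apply RingEquiv.ext
      intro x
      exact congrArg (fun u : F →* F => u x) hij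
  have hli2 := hli.comp _ hinj
  have hpos : 0 < 2 * r := by rw [← hr2]; exact orderOf_pos φ
  have := Fintype.linearIndependent_iff.mp hli2 (fun _ => 1) (by
    funext w₀
    have h2 := hsum w₀
    rw [Finset.sum_range] at h2
    simp only [Function.comp, one_smul, Finset.sum_apply, Pi.zero_apply]
    exact h2) ⟨0, hpos⟩
  exact one_ne_zero this

/-- **Classification of multiplicative quadratic bijections.** -/
theorem quad_mult_classify {F' F : Type*} [Field F'] [Fintype F'] [Field F] [Fintype F] [CharP F 2]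
    (θ : F' → F) (hmul : ∀ x y, θ (x * y) = θ x * θ y) (h1 : θ 1 = 1) (h0 : θ 0 = 0)
    (hbij : Function.Bijective θ)
    (hquad : ∀ x y z, θ (x + y + z) + θ (x + y) + θ (x + z) + θ (y + z) + θ x + θ y + θ z = 0)
    (hna : ∃ x y, θ (x + y) ≠ θ x + θ y) :
    ∃ (ψ : F' ≃+* F) (φ : F ≃+* F), φ ≠ RingEquiv.refl F ∧ Odd (orderOf φ) ∧
      ∀ x, θ x = φ (ψ x) * ψ x := by
  classical
  have hfact : Fact (Nat.Prime 2) := ⟨Nat.prime_two⟩
  have hcard : Fintype.card F' = Fintype.card F := Fintype.card_of_bijective hbij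
  let ι : F' ≃+* F := FiniteField.ringEquivOfCardEq hcard
  -- the power map
  obtain ⟨γ, hγ⟩ := IsCyclic.exists_generator (α := Fˣ)
  have hθne : ∀ x : F', x ≠ 0 → θ x ≠ 0 := by
    intro x hx h
    exact hx (hbij.1 (h.trans h0.symm))
  have hθpow : ∀ (x : F') (m : ℕ), θ (x ^ m) = θ x ^ m := by
    intro x m
    induction m with
    | zero => rw [pow_zero, pow_zero, h1]
    | succ m ih => rw [pow_succ, pow_succ, hmul, ih]
  have hγ0 : ι.symm (γ : F) ≠ 0 := by
    intro h
    have := congrArg ι h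
    rw [RingEquiv.apply_symm_apply, map_zero] at this
    exact γ.ne_zero this
  obtain ⟨d₀, hd₀⟩ : ∃ d₀ : ℕ, (γ : F) ^ d₀ = θ (ι.symm (γ : F)) := by
    have hmem := hγ (Units.mk0 _ (hθne _ hγ0))
    rw [← mem_powers_iff_mem_zpowers] at hmem
    obtain ⟨n, hn⟩ := hmem
    refine ⟨n, ?_⟩
    have := congrArg (fun u : Fˣ => (u : F)) hn
    simpa using this
  have hq1 : 1 < Fintype.card F := Fintype.one_lt_card
  have hpowq : ∀ x : F, x ≠ 0 → x ^ (Fintype.card F - 1) = 1 := fun x hx =>
    FiniteField.pow_card_sub_one_eq_one x hx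
  obtain ⟨d, hd0, hdq, hd⟩ : ∃ d : ℕ, 0 < d ∧ d < Fintype.card F ∧
      (γ : F) ^ d = θ (ι.symm (γ : F)) := by
    have hmod : (γ : F) ^ (d₀ % (Fintype.card F - 1)) = θ (ι.symm (γ : F)) := by
      rw [← hd₀]
      conv_rhs => rw [← Nat.div_add_mod d₀ (Fintype.card F - 1)]
      rw [pow_add, pow_mul, hpowq _ γ.ne_zero, one_pow, one_mul]
    have hlt : d₀ % (Fintype.card F - 1) < Fintype.card F - 1 := Nat.mod_lt _ (by omega)
    by_cases hz : d₀ % (Fintype.card F - 1) = 0
    · refine ⟨Fintype.card F - 1, by omega, by omega, ?_⟩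
      rw [← hmod, hz, pow_zero, hpowq _ γ.ne_zero]
    · exact ⟨_, Nat.pos_of_ne_zero hz, by omega, hmod⟩
  have hθ' : ∀ x : F, θ (ι.symm x) = x ^ d := by
    intro x
    by_cases hx : x = 0
    · rw [hx, map_zero, h0, zero_pow hd0.ne']
    have hmem := hγ (Units.mk0 x hx)
    rw [← mem_powers_iff_mem_zpowers] at hmem
    obtain ⟨m, hm⟩ := hmem
    have hm' : (γ : F) ^ m = x := by
      have := congrArg (fun u : Fˣ => (u : F)) hm
      simpa using this
    rw [← hm', map_pow, hθpow, ← hd, ← pow_mul, ← pow_mul, mul_comm]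
  have hθ : ∀ x : F', θ x = (ι x) ^ d := by
    intro x
    rw [← hθ', RingEquiv.symm_apply_apply]
  have hq' : ∀ x y z : F, (x + y + z) ^ d + (x + y) ^ d + (x + z) ^ d + (y + z) ^ d + x ^ d + y ^ d
      + z ^ d = 0 := by
    intro x y z
    have := hquad (ι.symm x) (ι.symm y) (ι.symm z)
    simp only [← map_add, hθ'] at this
    exact this
  obtain ⟨x₁, y₁, hxy⟩ := hna
  have hnotpow : ∀ i, d ≠ 2 ^ i := by
    intro i hi
    apply hxy
    rw [hθ, hθ, hθ, hi, map_add, add_pow_char_pow]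
  rcases pow_quad d hd0 hdq hq' with ⟨i, hi⟩ | ⟨i, j, hij⟩
  · exact absurd hi (hnotpow i)
  let Fi : F ≃+* F := iterateFrobeniusEquiv F 2 i
  let Fj : F ≃+* F := iterateFrobeniusEquiv F 2 j
  have hFi : ∀ x, Fi x = x ^ 2 ^ i := fun x => iterateFrobeniusEquiv_def F 2 i x
  have hFj : ∀ x, Fj x = x ^ 2 ^ j := fun x => iterateFrobeniusEquiv_def F 2 j x
  have hform : ∀ x, θ x = (Fi.symm.trans Fj) ((ι.trans Fi) x) * (ι.trans Fi) x := by
    intro x
    rw [RingEquiv.trans_apply, RingEquiv.trans_apply, RingEquiv.symm_apply_apply, hFi, hFj, hθ, hij,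
      pow_add, mul_comm]
  refine ⟨ι.trans Fi, Fi.symm.trans Fj, ?_, ?_, hform⟩
  · intro hrefl
    apply hxy
    rw [hform, hform, hform, hrefl]
    simp only [RingEquiv.refl_apply, map_add]
    have h2 : ∀ a : F, a + a = 0 := fun a => CharTwo.add_self_eq_zero a
    linear_combination h2 ((ι.trans Fi) x₁ * (ι.trans Fi) y₁)
  · by_contra hodd
    rw [Nat.not_odd_iff_even] at hodd
    obtain ⟨w, hw1, hw2⟩ := exists_fixed_sq_not_fixed _ hodd
    set φ := Fi.symm.trans Fj with hφ
    have hw0 : w ≠ 0 := by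
      intro h
      apply hw2
      rw [h, map_zero]
    have hφw0 : φ w ≠ 0 := by
      intro h
      apply hw0
      have := congrArg φ h
      rw [hw1, map_zero] at this
      exact this
    have e1 : θ ((ι.trans Fi).symm (w * (φ w)⁻¹)) = θ 1 := by
      rw [hform, RingEquiv.apply_symm_apply, h1, map_mul, map_inv₀, hw1]
      field_simp
    have e2 := hbij.1 e1
    have e3 := congrArg (ι.trans Fi) e2
    rw [RingEquiv.apply_symm_apply, map_one] at e3
    apply hw2
    field_simp at e3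
    exact e3.symm

end Cfsg.Agent.Lib.Helper36
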