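import Mathlib
import Cfsg.Agent.Lib.Helper99.SPU.Defs
import Cfsg.Agent.Lib.Helper99.SPU.TADD
import Cfsg.Agent.Lib.Helper67.SPUNMU

set_option autoImplicit false

universe u

namespace Cfsg.Agent.Lib.Helper36.SPU

open Module LinearMap QuadraticMap Cfsg.Agent.Lib.Helper48 Cfsg.Agent.Lib.Helper17
  Cfsg.Agent.Lib.Helper99.SP8 Cfsg.Agent.Lib.Helper99.PGB Cfsg.Agent.Lib.Helper99.SPU
  Cfsg.Agent.Lib.Helper67.SPU

theorem comb_prodMap_eq_one {F V₁ V₂ : Type*} [Field F] [AddCommGroup V₁] [Module F V₁]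
    [AddCommGroup V₂] [Module F V₂] (T₁ : End F V₁) (T₂ : End F V₂) (j : ℕ) :
    (LinearMap.prodMap T₁ T₂ : End F (V₁ × V₂)) ^ j = 1 ↔ T₁ ^ j = 1 ∧ T₂ ^ j = 1 := by
  constructor
  · intro h
    constructor
    · apply LinearMap.ext
      intro x
      have := congrArg (fun φ : End F (V₁ × V₂) => (φ (x, 0)).1) h
      simp only [prodMap_pow_apply] at this
      exact this
    · apply LinearMap.ext
      intro x
      have := congrArg (fun φ : End F (V₁ × V₂) => (φ (0, x)).2) h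
      simp only [prodMap_pow_apply] at this
      exact this
  · rintro ⟨h1, h2⟩
    apply LinearMap.ext
    rintro ⟨x, y⟩
    rw [prodMap_pow_apply, h1, h2]
    rfl

theorem comb_odd_cast_ne_zero {F : Type*} [Field F] [CharP F 2] {m : ℕ} (hm : Odd m) :
    (m : F) ≠ 0 := by
  obtain ⟨k, rfl⟩ := hm
  have h2 : (2 : F) = 0 := by exact_mod_cast CharP.cast_eq_zero F 2
  push_cast
  rw [h2, zero_mul, zero_add]
  exact one_ne_zero

/-- COMB -/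
theorem comb {F : Type u} [Field F] [Fintype F] [CharP F 2] {ε : Bool} {c₁ c₂ K b : ℕ}
    (hK : 0 < K) (h₁ : QD F ε c₁ K 0) (h₂ : QN F (!ε) c₂ (2 ^ b) 2) (hc : c₁ + c₂ = 4) :
    ∃ K', 0 < K' ∧ Nat.lcm K (2 ^ (b + 1)) ∣ K' ∧ InG F K' := by
  obtain ⟨V₁, _, _, _, Q₁, T₁, ht₁, hi₁, ho₁, hf₁⟩ := h₁
  obtain ⟨V₂, _, _, _, Q₂, T₂, ht₂, hi₂, ho₂, hf₂, hN₂⟩ := h₂
  obtain ⟨L, hL⟩ : ∃ L, L = Nat.lcm K (2 ^ b) := ⟨_, rfl⟩
  have hLpos : 0 < L := hL ▸ Nat.lcm_pos hK (by positivity)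
  have hKL : K ∣ L := hL ▸ Nat.dvd_lcm_left _ _
  have hbL : 2 ^ b ∣ L := hL ▸ Nat.dvd_lcm_right _ _
  have htyp : IsTyp (Q₁.prod Q₂) 4 false := hc ▸ isTyp_prod_ne ht₁ ht₂
  have hiso : ∀ v, (Q₁.prod Q₂) ((LinearMap.prodMap T₁ T₂ : End F (V₁ × V₂)) v)
      = (Q₁.prod Q₂) v := by
    rintro ⟨x, y⟩
    show Q₁ (T₁ x) + Q₂ (T₂ y) = Q₁ x + Q₂ y
    rw [hi₁, hi₂]
  have hord : ∀ j, (LinearMap.prodMap T₁ T₂ : End F (V₁ × V₂)) ^ j = 1 ↔ L ∣ j := by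
    intro j
    rw [comb_prodMap_eq_one, ho₁, ho₂, hL, Nat.lcm_dvd_iff]
  have hfix : finrank F (ker ((LinearMap.prodMap T₁ T₂ : End F (V₁ × V₂)) - 1)) = 2 := by
    rw [Cfsg.Agent.Lib.Helper67.SPU.finrank_ker_prodMap, hf₁, hf₂]
  obtain ⟨m, hm⟩ := hbL
  rcases Nat.even_or_odd m with hev | hodd
  · -- `2 ^ (b + 1) ∣ L`
    refine ⟨L, hLpos, Nat.lcm_dvd hKL ?_, Or.inl ⟨2, even_two, V₁ × V₂, inferInstance,
      inferInstance, inferInstance, Q₁.prod Q₂, _, htyp, hiso, hord, hfix⟩⟩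
    obtain ⟨k, rfl⟩ := hev
    exact ⟨k, by rw [hm, pow_succ]; ring⟩
  · refine ⟨2 * L, by positivity, Nat.lcm_dvd (hKL.mul_left 2) ?_, Or.inr ⟨L, 2, rfl, even_two,
      V₁ × V₂, inferInstance, inferInstance, inferInstance, Q₁.prod Q₂, _, htyp, hiso, hord, hfix,
      ?_⟩⟩
    · exact ⟨m, by rw [hm, pow_succ]; ring⟩
    · intro h
      apply hN₂
      apply LinearMap.ext
      intro y
      have h4 := congrArg (fun φ : End F (V₁ × V₂) => (φ (0, y)).2) h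
      simp only [Nm_prodMap] at h4
      rw [hm, Nm_mul T₂ ((ho₂ _).mpr dvd_rfl) m, LinearMap.smul_apply] at h4
      have h5 : (m : F) • (Nm T₂ (2 ^ b)) y = 0 := h4
      rcases smul_eq_zero.mp h5 with h6 | h6
      · exact absurd h6 (comb_odd_cast_ne_zero hodd)
      · exact h6

end Cfsg.Agent.Lib.Helper36.SPU
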