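import Cfsg.Agent.Lib.Helper36.TI
import Cfsg.Agent.Lib.Helper28.Cores
import Mathlib.GroupTheory.Sylow

set_option autoImplicit false

namespace Cfsg.Agent.Lib.Helper36

open Subgroup

/-- the subgroup generated by the squares of the elements of `P` -/
def sqSub {X : Type*} [Group X] (P : Subgroup X) : Subgroup X :=
  closure ((fun q : X => q ^ 2) '' (P : Set X))

theorem sq_mem_sqSub {X : Type*} [Group X] (P : Subgroup X) {q : X} (hq : q ∈ P) :
    q ^ 2 ∈ sqSub P := subset_closure ⟨q, hq, rfl⟩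

theorem sqSub_le {X : Type*} [Group X] (P : Subgroup X) : sqSub P ≤ P := by
  rw [sqSub, closure_le]
  rintro _ ⟨q, hq, rfl⟩
  exact P.pow_mem hq 2

theorem map_sqSub {X Y : Type*} [Group X] [Group Y] (f : X →* Y) (P : Subgroup X) :
    (sqSub P).map f = sqSub (P.map f) := by
  rw [sqSub, sqSub, MonoidHom.map_closure]
  congr 1
  ext y
  constructor
  · rintro ⟨_, ⟨q, hq, rfl⟩, rfl⟩
    exact ⟨f q, ⟨q, hq, rfl⟩, by simp⟩
  · rintro ⟨_, ⟨q, hq, rfl⟩, rfl⟩
    exact ⟨q ^ 2, ⟨q, hq, rfl⟩, by simp⟩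

theorem map_conj_eq_of_normal {X : Type*} [Group X] (P : Subgroup X) [hP : P.Normal] (g : X) :
    P.map (MulAut.conj g).toMonoidHom = P := by
  rw [map_conj_eq_iff_mem_normalizer, normalizer_eq_top_iff.mpr hP]
  trivial

theorem sqSub_normal {X : Type*} [Group X] (P : Subgroup X) [hP : P.Normal] :
    (sqSub P).Normal := by
  refine ⟨fun n hn g => ?_⟩
  have h1 : (sqSub P).map (MulAut.conj g).toMonoidHom = sqSub P := by
    rw [map_sqSub, map_conj_eq_of_normal]
  rw [← h1]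
  exact conj_mem_map_conj _ g n hn

theorem sqSub_ne {X : Type*} [Group X] (P : Subgroup X) [Finite P] (hP : IsPGroup 2 ↥P)
    (hne : P ≠ ⊥) : sqSub P ≠ P := by
  have hp2 : Fact (Nat.Prime 2) := ⟨Nat.prime_two⟩
  obtain ⟨n, hn⟩ := IsPGroup.iff_card.mp hP
  have hn0 : n ≠ 0 := by
    rintro rfl
    rw [pow_zero, card_eq_one] at hn
    exact hne hn
  obtain ⟨k, rfl⟩ := Nat.exists_eq_succ_of_ne_zero hn0
  obtain ⟨K, hK⟩ := Sylow.exists_subgroup_card_pow_prime (G := ↥P) 2 (n := k)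
    (by rw [hn]; exact pow_dvd_pow 2 (Nat.le_succ k))
  have hidx : K.index = 2 := by
    have h1 := K.card_mul_index
    rw [hK, hn, pow_succ] at h1
    exact Nat.eq_of_mul_eq_mul_left (pow_pos (by norm_num) k) h1
  intro heq
  have hle : sqSub P ≤ K.map P.subtype := by
    rw [sqSub, closure_le]
    rintro _ ⟨q, hq, rfl⟩
    exact ⟨⟨q, hq⟩ ^ 2, sq_mem_of_index_two hidx _, rfl⟩
  rw [heq] at hle
  have : K = ⊤ := by
    rw [eq_top_iff]
    intro x _
    obtain ⟨y, hy, hyx⟩ := hle x.2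
    have : y = x := Subtype.ext hyx
    rwa [← this]
  rw [this, index_top] at hidx
  omega

/-- the elements of `X` acting trivially on `P / sqSub P` for all normal subgroups `P ≤ Q` -/
def stabSq {X : Type*} [Group X] (Q : Subgroup X) : Subgroup X where
  carrier := {x | ∀ P : Subgroup X, P.Normal → P ≤ Q → ∀ q ∈ P, x * q * x⁻¹ * q⁻¹ ∈ sqSub P}
  one_mem' := by
    intro P _ _ q _
    simp
  mul_mem' := by
    intro x y hx hy P hP hPQ q hq
    have hn := sqSub_normal P
    have h1 := hn.conj_mem _ (hy P hP hPQ q hq) x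
    have h2 := hx P hP hPQ q hq
    have e : x * y * q * (x * y)⁻¹ * q⁻¹ = (x * (y * q * y⁻¹ * q⁻¹) * x⁻¹) * (x * q * x⁻¹ * q⁻¹) := by
      group
    rw [e]
    exact mul_mem h1 h2
  inv_mem' := by
    intro x hx P hP hPQ q hq
    have hn := sqSub_normal P
    have h2 := hx P hP hPQ q hq
    have h1 := hn.conj_mem _ (inv_mem h2) x⁻¹
    have e : x⁻¹ * q * x⁻¹⁻¹ * q⁻¹ = x⁻¹ * (x * q * x⁻¹ * q⁻¹)⁻¹ * x⁻¹⁻¹ := by group
    rw [e]
    exact h1

theorem stabSq_normal {X : Type*} [Group X] (Q : Subgroup X) : (stabSq Q).Normal := by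
  refine ⟨fun x hx g => ?_⟩
  intro P hP hPQ q hq
  have hn := sqSub_normal P
  have hq' : g⁻¹ * q * g ∈ P := by
    have := hP.conj_mem q hq g⁻¹
    simpa using this
  have h1 := hn.conj_mem _ (hx P hP hPQ _ hq') g
  have e : g * x * g⁻¹ * q * (g * x * g⁻¹)⁻¹ * q⁻¹ =
      g * (x * (g⁻¹ * q * g) * x⁻¹ * (g⁻¹ * q * g)⁻¹) * g⁻¹ := by group
  rw [e]
  exact h1

theorem eq_one_of_pow_two_pow_of_odd {X : Type*} [Group X] (n : X) (j m : ℕ) (hm : Odd m)
    (h1 : n ^ (2 ^ j) = 1) (h2 : n ^ m = 1) : n = 1 := by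
  have hc : Nat.Coprime (2 ^ j) m := by
    apply Nat.Coprime.pow_left
    exact (Nat.coprime_two_left).mpr hm
  have := pow_gcd_eq_one.mpr ⟨h1, h2⟩
  rwa [hc.gcd_eq_one, pow_one] at this

/-- an element of odd order of `stabSq Q` centralizes the normal 2-subgroup `Q` -/
theorem centralizes_of_mem_stabSq {X : Type*} [Group X] [Finite X] (Q : Subgroup X)
    (hQ2 : IsPGroup 2 ↥Q) (y : X) (hy : y ∈ stabSq Q) (m : ℕ) (hm : Odd m) (hym : y ^ m = 1) :
    ∀ n : ℕ, ∀ P : Subgroup X, P.Normal → P ≤ Q → Nat.card P = n → ∀ q ∈ P, y * q * y⁻¹ = q := by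
  intro n
  induction n using Nat.strong_induction_on with
  | _ n ih =>
    intro P hP hPQ hcard q hq
    by_cases hbot : P = ⊥
    · rw [hbot, mem_bot] at hq
      subst hq
      simp
    have hP2 : IsPGroup 2 ↥P := hQ2.to_le hPQ
    have hne := sqSub_ne P hP2 hbot
    have hle := sqSub_le P
    have hlt : Nat.card (sqSub P) < n := by
      by_contra hcon
      push Not at hcon
      rw [← hcard] at hcon
      exact hne (eq_of_le_of_card_ge hle hcon)
    have hcen := ih _ hlt (sqSub P) (sqSub_normal P) (hle.trans hPQ) rfl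
    set c := y * q * y⁻¹ * q⁻¹ with hc
    have hcS : c ∈ sqSub P := hy P hP hPQ q hq
    have hyc : y * c * y⁻¹ = c := hcen c hcS
    have hpow : ∀ k : ℕ, y ^ k * q * (y ^ k)⁻¹ = c ^ k * q := by
      intro k
      induction k with
      | zero => simp
      | succ k ihk =>
        have hyck : y * c ^ k * y⁻¹ = c ^ k := by
          have : y * c ^ k * y⁻¹ = (y * c * y⁻¹) ^ k := by
            rw [conj_pow]
          rw [this, hyc]
        calc y ^ (k + 1) * q * (y ^ (k + 1))⁻¹ = y * (y ^ k * q * (y ^ k)⁻¹) * y⁻¹ := by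
              rw [pow_succ']; group
          _ = y * (c ^ k * q) * y⁻¹ := by rw [ihk]
          _ = (y * c ^ k * y⁻¹) * (y * q * y⁻¹ * q⁻¹) * q := by group
          _ = c ^ k * c * q := by rw [hyck]
          _ = c ^ (k + 1) * q := by rw [pow_succ]
    have h1 := hpow m
    rw [hym] at h1
    have hcm : c ^ m = 1 := by
      have : c ^ m * q = q := by rw [← h1]; simp
      exact mul_eq_right.mp this
    obtain ⟨j, hj⟩ := hQ2 ⟨c, hPQ (hle hcS)⟩
    have hj' : c ^ (2 ^ j) = 1 := congrArg Subtype.val hj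
    have hc1 := eq_one_of_pow_two_pow_of_odd c j m hm hj' hcm
    calc y * q * y⁻¹ = c * q := by rw [hc]; group
      _ = q := by rw [hc1, one_mul]

/-- If `Q` is a normal 2-subgroup containing its centralizer then `stabSq Q` lies in `O_2(X)`. -/
theorem stabSq_le_pCore {X : Type*} [Group X] [Finite X] (Q : Subgroup X) [hQn : Q.Normal]
    (hQ2 : IsPGroup 2 ↥Q) (hcen : centralizer (Q : Set X) ≤ Q) :
    stabSq Q ≤ Cfsg.pCore 2 X := by
  apply Cfsg.Agent.Lib.Helper28.le_pCore (stabSq_normal Q)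
  intro x
  obtain ⟨k, m, hm, hkm⟩ := Nat.exists_eq_two_pow_mul_odd (orderOf_pos (x : X)).ne'
  refine ⟨k, ?_⟩
  apply Subtype.ext
  change (x : X) ^ (2 ^ k) = 1
  set y := (x : X) ^ (2 ^ k) with hy
  have hyS : y ∈ stabSq Q := (stabSq Q).pow_mem x.2 _
  have hym : y ^ m = 1 := by
    rw [hy, ← pow_mul, ← hkm, pow_orderOf_eq_one]
  have hc := centralizes_of_mem_stabSq Q hQ2 y hyS m hm hym _ Q hQn le_rfl rfl
  have hyQ : y ∈ Q := by
    apply hcen
    rw [mem_centralizer_iff]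
    intro q hq
    have := hc q hq
    calc q * y = (y * q * y⁻¹) * y := by rw [this]
      _ = y * q := by group
  obtain ⟨j, hj⟩ := hQ2 ⟨y, hyQ⟩
  exact eq_one_of_pow_two_pow_of_odd y j m hm (congrArg Subtype.val hj) hym

end Cfsg.Agent.Lib.Helper36
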