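import Mathlib
import Cfsg.Prelude.Def_LieRecognition
import Cfsg.Agent.Lib.Helper36.SuzReg
import Cfsg.Agent.Lib.Helper36.QuadPow
import Cfsg.Agent.Lib.Helper36.QuadExt

/-!
Higman: a Suzuki 2-group whose order is the square of the order of its centre is of type A.
-/

set_option autoImplicit false
set_option maxHeartbeats 1000000

namespace Cfsg.Agent.Lib.Helper36

universe u

theorem RegAct.typeA {P : Type u} [Group P] {K : Subgroup (MulAut P)} (h : RegAct P K)
    (hna : ∃ x y : P, x * y ≠ y * x)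
    (hcard : Nat.card P = Nat.card (Subgroup.center P) ^ 2) :
    ∃ (F : Type) (_ : Field F) (_ : Fintype F) (φ : F ≃+* F),
      Fintype.card F = Nat.card (Subgroup.center P) ∧
      φ ≠ RingEquiv.refl F ∧ Odd (orderOf φ) ∧
      Nonempty (P ≃* Cfsg.suzukiTypeA F (φ : F →+* F)) := by
  classical
  have hfin := h.fin
  have hfact : Fact (Nat.Prime 2) := ⟨Nat.prime_two⟩
  obtain ⟨Z, hZdef⟩ : ∃ Z : Subgroup P, Z = Subgroup.center P := ⟨_, rfl⟩
  have hZn : Z.Normal := by rw [hZdef]; infer_instance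
  have hZsq : ∀ z ∈ Z, z * z = 1 := by rw [hZdef]; exact h.center_sq hna
  have hZmem : ∀ x : P, x * x = 1 → x ∈ Z := by
    intro x hx
    rw [hZdef]
    exact Subgroup.mem_center_iff.mpr (fun g => (h.inv_central hx g).symm)
  have hZiff : ∀ x : P, x ∈ Z ↔ x * x = 1 := fun x => ⟨hZsq x, hZmem x⟩
  have hZcen : ∀ z ∈ Z, ∀ g : P, z * g = g * z := fun z hz g => h.inv_central (hZsq z hz) g
  have hZK : ∀ (k : MulAut P) (x : P), k x ∈ Z ↔ x ∈ Z := by
    intro k x
    rw [hZiff, hZiff, ← map_mul]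
    constructor
    · intro h1
      exact k.injective (h1.trans (map_one k).symm)
    · intro h1
      rw [h1, map_one]
  -- step 1 : an element of the second centre
  obtain ⟨w₀, hw₀Z, hw₀sq, hw₀c⟩ : ∃ w₀ : P, w₀ ∉ Z ∧ w₀ * w₀ ∈ Z ∧ ∀ g, cm w₀ g ∈ Z := by
    obtain ⟨x, y, hxy⟩ := hna
    have hxZ : x ∉ Z := fun hx => hxy (hZcen x hx y)
    have hnt : Nontrivial (P ⧸ Z) :=
      ⟨(x : P ⧸ Z), 1, fun h0 => hxZ ((QuotientGroup.eq_one_iff x).mp h0)⟩
    have hp : IsPGroup 2 (P ⧸ Z) := h.two.to_quotient Z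
    have hcn : Nontrivial (Subgroup.center (P ⧸ Z)) := hp.center_nontrivial
    obtain ⟨c, hc⟩ := exists_ne (1 : Subgroup.center (P ⧸ Z))
    have hc1 : (c : P ⧸ Z) ≠ 1 := fun h0 => hc (Subtype.ext h0)
    obtain ⟨n, hn⟩ := hp (c : P ⧸ Z)
    obtain ⟨m, hm1, hm2⟩ := exists_pow_involution n (c : P ⧸ Z) hn hc1
    have hcen : (c : P ⧸ Z) ^ (2 ^ m) ∈ Subgroup.center (P ⧸ Z) := Subgroup.pow_mem _ c.2 _
    obtain ⟨w₀, hw₀⟩ := QuotientGroup.mk_surjective ((c : P ⧸ Z) ^ (2 ^ m))
    rw [← hw₀] at hm1 hm2 hcen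
    refine ⟨w₀, fun h0 => hm1 ((QuotientGroup.eq_one_iff w₀).mpr h0), ?_, fun g => ?_⟩
    · rw [← QuotientGroup.eq_one_iff, QuotientGroup.mk_mul]; exact hm2
    · rw [← QuotientGroup.eq_one_iff]
      have h1 := Subgroup.mem_center_iff.mp hcen (g : P ⧸ Z)
      have h2 : ((cm w₀ g : P) : P ⧸ Z) = cm (w₀ : P ⧸ Z) (g : P ⧸ Z) := by
        unfold cm; simp only [QuotientGroup.mk_mul, QuotientGroup.mk_inv]
      rw [h2, cm_eq_one]
      exact h1.symm
  have hz₀1 : w₀ * w₀ ≠ 1 := fun h0 => hw₀Z (hZmem _ h0)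
  obtain ⟨F, iF, iFin, iChar, e, he1, headd, heinj, herange, hKt, htK⟩ :=
    h.coords (w₀ * w₀) hz₀1 (hZsq _ hw₀sq)
  have he0 : e 0 = 1 := by
    have := headd 0 0
    rw [add_zero] at this
    exact (left_eq_mul.mp this)
  have heZ : ∀ a, e a ∈ Z := fun a => hZmem _ ((herange _).mpr ⟨a, rfl⟩)
  have hecen : ∀ a g, e a * g = g * e a := fun a g => hZcen _ (heZ a) g
  have hesq : ∀ a, e a * e a = 1 := fun a => hZsq _ (heZ a)
  have hZe : ∀ z ∈ Z, ∃ a, e a = z := fun z hz => (herange z).mp (hZsq z hz)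
  -- step 2 : a section of the squaring map
  have hsec : ∀ a : F, ∃ x : P, x * x = e a ∧ (∀ g, cm x g ∈ Z) ∧ (a ≠ 0 → ∃ k ∈ K, x = k w₀) := by
    intro a
    by_cases ha : a = 0
    · refine ⟨1, by rw [ha, he0, mul_one], fun g => ?_, fun h0 => absurd ha h0⟩
      have : cm 1 g = 1 := cm_eq_one.mpr (by rw [one_mul, mul_one])
      rw [this]; exact Z.one_mem
    · obtain ⟨k, hk, hka⟩ := htK a ha
      refine ⟨k w₀, by rw [← map_mul, ← he1, hka, mul_one], fun g => ?_, fun _ => ⟨k, hk, rfl⟩⟩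
      have : cm (k w₀) g = k (cm w₀ (k⁻¹ g)) := by rw [map_cm, MulAut.apply_inv_self]
      rw [this, hZK]
      exact hw₀c _
  choose s hs1 hs2 hs3 using hsec
  have hcardZ : Nat.card Z = Fintype.card F := by
    rw [← Nat.card_eq_fintype_card]
    symm
    apply Nat.card_eq_of_bijective (fun a : F => (⟨e a, heZ a⟩ : Z))
    constructor
    · intro a b hab
      exact heinj (congrArg Subtype.val hab)
    · rintro ⟨z, hz⟩
      obtain ⟨a, ha⟩ := hZe z hz
      exact ⟨a, Subtype.ext ha⟩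
  have hsqprod : ∀ a b, (s a * e b) * (s a * e b) = e a := by
    intro a b
    rw [mul_assoc, ← mul_assoc (e b), hecen b, mul_assoc, hesq, mul_one, hs1]
  have hparam : Function.Bijective (fun ab : F × F => s ab.1 * e ab.2) := by
    apply Function.Injective.bijective_of_nat_card_le
    · rintro ⟨a, b⟩ ⟨a', b'⟩ hab
      have hab' : s a * e b = s a' * e b' := hab
      have h1 : a = a' := by
        apply heinj
        rw [← hsqprod a b, hab', hsqprod]
      subst h1
      have h2 : b = b' := heinj (mul_left_cancel hab')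
      rw [h2]
    · rw [hcard, ← hZdef, hcardZ, Nat.card_prod, Nat.card_eq_fintype_card, pow_two]
  have hform : ∀ x : P, ∃ a b, x = s a * e b := by
    intro x
    obtain ⟨⟨a, b⟩, hab⟩ := hparam.2 x
    exact ⟨a, b, hab.symm⟩
  have hsqex : ∀ x : P, ∃ a, x * x = e a := by
    intro x
    obtain ⟨a, b, rfl⟩ := hform x
    exact ⟨a, hsqprod a b⟩
  choose sqF hsqF using hsqex
  have hcmZ : ∀ x g : P, cm x g ∈ Z := by
    intro x g
    obtain ⟨a, b, rfl⟩ := hform x
    rw [cm_mul_left (hZcen _ (hs2 a g)), cm_eq_one.mpr (hecen b g), mul_one]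
    exact hs2 a g
  have hcmcen : ∀ x g y : P, cm x g * y = y * cm x g := fun x g y => hZcen _ (hcmZ x g) y
  have hcmex : ∀ x g : P, ∃ c, e c = cm x g := fun x g => hZe _ (hcmZ x g)
  choose cF hcF using hcmex
  have hsqinj : ∀ x y : P, sqF x = sqF y → x⁻¹ * y ∈ Z := by
    intro x y hxy
    obtain ⟨a, b, rfl⟩ := hform x
    obtain ⟨a', b', rfl⟩ := hform y
    have h1 : a = a' := by
      apply heinj
      rw [← hsqprod a b, ← hsqprod a' b', hsqF, hsqF, hxy]
    subst h1
    have : (s a * e b)⁻¹ * (s a * e b') = (e b)⁻¹ * e b' := by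
      simp only [mul_assoc, mul_inv_rev, inv_mul_cancel_left]
    rw [this]
    exact Z.mul_mem (Z.inv_mem (heZ b)) (heZ b')
  have hsqZ : ∀ (x z : P), z ∈ Z → sqF (x * z) = sqF x := by
    intro x z hz
    apply heinj
    rw [← hsqF, ← hsqF, mul_assoc, ← mul_assoc z, hZcen z hz, mul_assoc, hZsq z hz, mul_one]
  have hsqmul : ∀ p q : P, sqF (p * q) = sqF p + sqF q + cF q p := by
    intro p q
    apply heinj
    rw [headd, headd, ← hsqF, ← hsqF, ← hsqF, hcF]
    calc p * q * (p * q) = p * (p * q * cm q p) * q := by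
          unfold cm; simp only [mul_assoc, mul_inv_cancel_left]
      _ = p * p * (q * (cm q p * q)) := by simp only [mul_assoc]
      _ = p * p * (q * (q * cm q p)) := by rw [hcmcen]
      _ = p * p * (q * q) * cm q p := by simp only [mul_assoc]
  have hcFl : ∀ q q' p : P, cF (q * q') p = cF q p + cF q' p := by
    intro q q' p
    apply heinj
    rw [headd, hcF, hcF, hcF, cm_mul_left (hcmcen q p)]
  have hcFr : ∀ q p p' : P, cF q (p * p') = cF q p + cF q p' := by
    intro q p p'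
    apply heinj
    rw [headd, hcF, hcF, hcF, cm_mul_right (hcmcen q p)]
  -- step 3 : coordinates on the quotient
  let _ : CommGroup (P ⧸ Z) :=
    { (inferInstance : Group (P ⧸ Z)) with
      mul_comm := by
        intro a b
        obtain ⟨x, rfl⟩ := QuotientGroup.mk_surjective a
        obtain ⟨y, rfl⟩ := QuotientGroup.mk_surjective b
        rw [← QuotientGroup.mk_mul, ← QuotientGroup.mk_mul, QuotientGroup.eq]
        have : (x * y)⁻¹ * (y * x) = cm y x := by
          unfold cm; simp only [mul_assoc, mul_inv_rev]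
        rw [this]
        exact hcmZ y x }
  have hchar : ∀ k : MulAut P, Z ≤ Z.comap k.toMonoidHom := fun k z hz => (hZK k z).mpr hz
  let qm : MulAut P → (P ⧸ Z →* P ⧸ Z) := fun k => QuotientGroup.map Z Z k.toMonoidHom (hchar k)
  have hqm : ∀ k (x : P), qm k (x : P ⧸ Z) = ((k x : P) : P ⧸ Z) := fun _ _ => rfl
  let T : Set (Additive (P ⧸ Z) →+ Additive (P ⧸ Z)) :=
    {f | ∃ k ∈ K, f = MonoidHom.toAdditive (qm k)}
  have hTapp : ∀ k (x : P), MonoidHom.toAdditive (qm k) (Additive.ofMul (x : P ⧸ Z))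
      = Additive.ofMul ((k x : P) : P ⧸ Z) := fun _ _ => rfl
  have hrep : ∀ a : Additive (P ⧸ Z), ∃ x : P, a = Additive.ofMul (x : P ⧸ Z) := by
    intro a
    obtain ⟨x, hx⟩ := QuotientGroup.mk_surjective a.toMul
    exact ⟨x, by rw [hx]; rfl⟩
  have hofeq : ∀ x y : P, Additive.ofMul (x : P ⧸ Z) = Additive.ofMul (y : P ⧸ Z) ↔ x⁻¹ * y ∈ Z := by
    intro x y
    rw [← QuotientGroup.eq]
    exact Additive.ofMul.injective.eq_iff
  have hof0 : ∀ x : P, Additive.ofMul (x : P ⧸ Z) = 0 ↔ x ∈ Z := by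
    intro x
    rw [← QuotientGroup.eq_one_iff]
    exact Additive.ofMul.injective.eq_iff (b := (1 : P ⧸ Z))
  obtain ⟨F', iF', iFin', e', he'1, hT1, hT2⟩ := exists_field_of_regular T
    (by
      rintro _ ⟨k, hk, rfl⟩ _ ⟨k', hk', rfl⟩ a
      obtain ⟨x, rfl⟩ := hrep a
      rw [hTapp, hTapp, hTapp, hTapp]
      have := congrArg (fun u : MulAut P => u x) (h.comm k hk k' hk')
      change k (k' x) = k' (k x) at this
      rw [this])
    (by
      rintro _ ⟨k, hk, rfl⟩ a b hab
      obtain ⟨x, rfl⟩ := hrep a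
      obtain ⟨y, rfl⟩ := hrep b
      rw [hTapp, hTapp, hofeq, ← map_inv, ← map_mul, hZK] at hab
      exact (hofeq x y).mpr hab)
    (Additive.ofMul (w₀ : P ⧸ Z))
    (fun h0 => hw₀Z ((hof0 w₀).mp h0))
    (by
      intro a ha
      obtain ⟨x, rfl⟩ := hrep a
      obtain ⟨c, b, rfl⟩ := hform x
      have hc0 : c ≠ 0 := by
        intro hc
        apply ha
        rw [hof0, hZiff, hsqprod, hc, he0]
      obtain ⟨k, hk, hsk⟩ := hs3 c hc0
      refine ⟨_, ⟨k, hk, rfl⟩, ?_⟩
      rw [hTapp, hofeq, ← hsk, inv_mul_cancel_left]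
      exact heZ b)
  let uu : P → F' := fun p => e'.symm (Additive.ofMul (p : P ⧸ Z))
  have huu : ∀ p, e' (uu p) = Additive.ofMul (p : P ⧸ Z) := fun p => e'.apply_symm_apply _
  have huu_mul : ∀ p q, uu (p * q) = uu p + uu q := by
    intro p q
    apply e'.injective
    rw [map_add, huu, huu, huu]; rfl
  have huu_eq : ∀ p q, uu p = uu q ↔ p⁻¹ * q ∈ Z := by
    intro p q
    rw [← hofeq, ← huu, ← huu]
    exact e'.injective.eq_iff.symm
  have huu0 : ∀ p, uu p = 0 ↔ p ∈ Z := by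
    intro p
    rw [← hof0, ← huu]
    exact (map_eq_zero_iff e' e'.injective).symm
  have huu_surj : Function.Surjective uu := by
    intro x
    obtain ⟨p, hp⟩ := hrep (e' x)
    refine ⟨p, ?_⟩
    apply e'.injective
    rw [huu, hp]
  have huuw : uu w₀ = 1 := by
    apply e'.injective
    rw [huu, he'1]
  choose rep hrep' using huu_surj
  let θ : F' → F := fun x => sqF (rep x)
  have hθu : ∀ p, θ (uu p) = sqF p := by
    intro p
    have h1 : (rep (uu p))⁻¹ * p ∈ Z := (huu_eq _ _).mp (hrep' (uu p))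
    have h2 : p = rep (uu p) * ((rep (uu p))⁻¹ * p) := by rw [mul_inv_cancel_left]
    conv_rhs => rw [h2]
    rw [hsqZ _ _ h1]
  have hsqw : sqF w₀ = 1 := by
    apply heinj
    rw [← hsqF, he1]
  have hθ1 : θ 1 = 1 := by rw [← huuw, hθu, hsqw]
  have hθ0 : θ 0 = 0 := by
    have h1 : uu 1 = 0 := (huu0 1).mpr Z.one_mem
    rw [← h1, hθu]
    apply heinj
    rw [← hsqF, he0, mul_one]
  have hθmul : ∀ x y, θ (x * y) = θ x * θ y := by
    intro x y
    by_cases hx : x = 0
    · rw [hx, zero_mul, hθ0, zero_mul]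
    obtain ⟨_, ⟨k, hk, rfl⟩, hkx⟩ := hT2 x hx
    obtain ⟨t, -, hkt⟩ := hKt k hk
    have h1 : ∀ p, uu (k p) = x * uu p := by
      intro p
      apply e'.injective
      rw [← hkx, huu, huu, hTapp]
    have h2 : ∀ p, sqF (k p) = t * sqF p := by
      intro p
      apply heinj
      rw [← hkt, ← hsqF, ← hsqF, map_mul]
    have h3 : ∀ p, θ (x * uu p) = t * θ (uu p) := by
      intro p
      rw [← h1, hθu, hθu, h2]
    have h4 : θ x = t := by
      have := h3 w₀
      rw [huuw, mul_one, hθ1, mul_one] at this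
      exact this
    rw [← hrep' y, h3, h4]
  have hθbij : Function.Bijective θ := by
    constructor
    · intro x y hxy
      rw [← hrep' x, ← hrep' y, huu_eq]
      exact hsqinj _ _ hxy
    · intro a
      refine ⟨uu (s a), ?_⟩
      rw [hθu]
      apply heinj
      rw [← hsqF, hs1]
  have h2F : ∀ a : F, a + a = 0 := fun a => CharTwo.add_self_eq_zero a
  have hθquad : ∀ x y z, θ (x + y + z) + θ (x + y) + θ (x + z) + θ (y + z) + θ x + θ y + θ z = 0 := by
    intro x y z
    rw [← hrep' x, ← hrep' y, ← hrep' z, ← huu_mul, ← huu_mul, ← huu_mul, ← huu_mul]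
    simp only [hθu]
    rw [hsqmul (rep x * rep y) (rep z), hsqmul (rep x) (rep z), hsqmul (rep y) (rep z), hcFr]
    linear_combination h2F (sqF (rep x * rep y)) + 2 * h2F (sqF (rep z)) + h2F (cF (rep z) (rep x))
      + h2F (cF (rep z) (rep y)) + h2F (sqF (rep x)) + h2F (sqF (rep y))
  have hθna : ∃ x y, θ (x + y) ≠ θ x + θ y := by
    obtain ⟨p, q, hpq⟩ := hna
    refine ⟨uu p, uu q, ?_⟩
    rw [← huu_mul, hθu, hθu, hθu, hsqmul]
    intro h0
    have h1 : cF q p = 0 := left_eq_add.mp h0.symm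
    apply hpq
    have h2 := hcF q p
    rw [h1, he0] at h2
    exact (cm_eq_one.mp h2.symm).symm
  obtain ⟨ψ, φ, hφ1, hφ2, hφθ⟩ := quad_mult_classify θ hθmul hθ1 hθ0 hθbij hθquad hθna
  refine ⟨F, iF, iFin, φ, by rw [← hZdef, hcardZ], hφ1, hφ2, ?_⟩
  let A : QuadExt F (fun t => (φ : F →+* F) t * t) P :=
    { v := fun p => ψ (uu p)
      e := e
      v_mul := fun x y => by rw [huu_mul, map_add]
      v_surj := by
        intro a
        refine ⟨rep (ψ.symm a), ?_⟩
        change ψ (uu (rep (ψ.symm a))) = a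
        rw [hrep', RingEquiv.apply_symm_apply]
      e_add := headd
      e_inj := heinj
      e_cen := hecen
      ker := by
        intro x
        rw [map_eq_zero_iff ψ ψ.injective, huu0, hZiff]
        exact herange x
      sq := by
        intro x
        rw [hsqF, ← hθu, hφθ]
        rfl }
  have := finite_suzukiTypeA (φ : F →+* F)
  exact A.iso (typeAExt (φ : F →+* F))

end Cfsg.Agent.Lib.Helper36
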