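import Cfsg.Agent.Lib.Helper36.GF2Type
import Cfsg.Agent.Lib.Helper36.Stability
import Mathlib.GroupTheory.Nilpotent

set_option autoImplicit false

namespace Cfsg.Agent.Lib.Helper36

open Subgroup

/-- In a nilpotent group, a normal subgroup `N` not contained in `M` has an element outside `M`
which is central modulo `M`. -/
theorem exists_central_mod {T : Type*} [Group T] [hn : Group.IsNilpotent T] (N M : Subgroup T)
    [hN : N.Normal] (h : ¬ N ≤ M) :
    ∃ y ∈ N, y ∉ M ∧ ∀ t : T, y * t * y⁻¹ * t⁻¹ ∈ M := by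
  obtain ⟨n, hn⟩ := Subgroup.nilpotent_iff_lowerCentralSeries.mp hn
  have key : ∀ j k : ℕ, j + k = n → ∀ K : Subgroup T, K ≤ (⊤ : Subgroup T).lowerCentralSeries k →
      K ≤ N → ¬ K ≤ M → ∃ y ∈ N, y ∉ M ∧ ∀ t : T, y * t * y⁻¹ * t⁻¹ ∈ M := by
    intro j
    induction j with
    | zero =>
      intro k hk K hK _ hKM
      exfalso
      apply hKM
      have : k = n := by omega
      rw [this, hn] at hK
      exact hK.trans bot_le
    | succ j ih =>
      intro k hk K hK hKN hKM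
      by_cases hc : ⁅K, (⊤ : Subgroup T)⁆ ≤ M
      · obtain ⟨y, hyK, hyM⟩ := SetLike.not_le_iff_exists.mp hKM
        exact ⟨y, hKN hyK, hyM, fun t => hc (commutator_mem_commutator hyK (mem_top t))⟩
      · apply ih (k + 1) (by omega) ⁅K, (⊤ : Subgroup T)⁆ _ _ hc
        · rw [Subgroup.lowerCentralSeries_succ]
          exact commutator_mono hK le_rfl
        · exact (commutator_mono hKN le_rfl).trans (commutator_le_left N ⊤)
  exact key n 0 (by omega) N (by simp) le_rfl h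

theorem mem_zpowers_of_sq {G : Type*} [Group G] {z x : G} (hz : z * z = 1) (hx : x ∈ zpowers z) :
    x = 1 ∨ x = z := by
  obtain ⟨k, rfl⟩ := hx
  rcases Int.even_or_odd' k with ⟨m, rfl | rfl⟩
  · left
    change z ^ (2 * m) = 1
    rw [zpow_mul, zpow_two, hz, one_zpow]
  · right
    change z ^ (2 * m + 1) = z
    rw [zpow_add, zpow_mul, zpow_two, hz, one_zpow, one_mul, zpow_one]

/-- A 2-group of symplectic type and exponent dividing 4: all squares lie in the subgroup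
generated by the central involution. -/
theorem sq_mem_of_symp {T : Type*} [Group T] [Finite T] (hT : Cfsg.IsOfSymplecticType T)
    (h4 : ∀ x : T, x ^ 4 = 1) (ζ : T) (hζc : ζ ∈ center T) (hζ2 : orderOf ζ = 2) :
    ∀ x : T, x ^ 2 ∈ zpowers ζ := by
  have hp2 : Fact (Nat.Prime 2) := ⟨Nat.prime_two⟩
  have hnil : Group.IsNilpotent T := hT.1.isNilpotent
  have hζζ : ζ * ζ = 1 := by rw [← pow_two, ← hζ2, pow_orderOf_eq_one]
  have hZc : zpowers ζ ≤ center T := by rw [zpowers_le]; exact hζc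
  have hZn : (zpowers ζ).Normal := by
    refine ⟨fun n hn c => ?_⟩
    have h1 := mem_center_iff.mp (hZc hn) c
    have : c * n * c⁻¹ = n := by rw [h1]; group
    rw [this]; exact hn
  have h4' : ∀ x : T, x * x * (x * x) = 1 := by
    intro x
    rw [← h4 x, show (4 : ℕ) = 2 + 2 from rfl, pow_add, pow_two]
  have hfix : ∀ φ : T ≃* T, φ ζ = ζ := by
    intro φ
    apply symp_involution_unique hT ζ hζc hζ2 (center T) inferInstance inferInstance (φ ζ)
    · exact (characteristic_iff_le_comap.mp (inferInstance : (center T).Characteristic) φ) hζc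
    · rw [← hζ2]; exact φ.orderOf_eq ζ
  have hfixZ : ∀ φ : T ≃* T, ∀ c ∈ zpowers ζ, φ c ∈ zpowers ζ := by
    intro φ c hc
    rcases mem_zpowers_of_sq hζζ hc with h | h
    · rw [h, map_one]; exact one_mem _
    · rw [h, hfix]; exact mem_zpowers ζ
  have hinv : ∀ B : Subgroup T, B.Characteristic → IsMulCommutative ↥B → ∀ b ∈ B, b * b = 1 →
      b ∈ zpowers ζ := by
    intro B hBc hBa b hb hbb
    by_cases hb1 : b = 1
    · rw [hb1]; exact one_mem _
    · have hord : orderOf b = 2 := orderOf_eq_prime (by rw [pow_two]; exact hbb) hb1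
      rw [symp_involution_unique hT ζ hζc hζ2 B hBc hBa b hb hord]
      exact mem_zpowers ζ
  set N := sqSub (⊤ : Subgroup T) with hN
  have hNchar : N.Characteristic := by
    rw [characteristic_iff_map_eq]
    intro φ
    rw [hN, map_sqSub]
    congr 1
    exact map_top_of_surjective _ φ.surjective
  have hNn : N.Normal := inferInstance
  have hsqN : ∀ x : T, x * x ∈ N := fun x => by
    rw [← pow_two]; exact sq_mem_sqSub ⊤ (mem_top x)
  set M := Subgroup.upperCentralSeriesStep (zpowers ζ) ⊓ N with hM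
  have hMmem : ∀ a : T, a ∈ M ↔ (∀ t : T, a * t * a⁻¹ * t⁻¹ ∈ zpowers ζ) ∧ a ∈ N := by
    intro a
    rw [hM, mem_inf, Subgroup.mem_upperCentralSeriesStep]
    rfl
  have hMchar : M.Characteristic := by
    rw [characteristic_iff_le_comap]
    intro φ a ha
    rw [mem_comap, hMmem]
    obtain ⟨ha1, ha2⟩ := (hMmem a).mp ha
    refine ⟨fun t => ?_, (characteristic_iff_le_comap.mp hNchar φ) ha2⟩
    have h1 := hfixZ φ _ (ha1 (φ.symm t))
    simpa using h1
  have hMn : M.Normal := inferInstance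
  have hYN : ∀ a : T, (∀ t : T, a * t * a⁻¹ * t⁻¹ ∈ zpowers ζ) → ∀ b ∈ N, a * b = b * a := by
    intro a ha
    have hle : N ≤ centralizer {a} := by
      rw [hN, sqSub, closure_le]
      rintro _ ⟨x, -, rfl⟩
      rw [SetLike.mem_coe, mem_centralizer_singleton_iff]
      change x ^ 2 * a = a * x ^ 2
      rw [pow_two]
      obtain ⟨c, hc, hcx⟩ : ∃ c ∈ zpowers ζ, a * x = c * (x * a) :=
        ⟨a * x * a⁻¹ * x⁻¹, ha x, by group⟩
      have hcc : c * c = 1 := by
        rcases mem_zpowers_of_sq hζζ hc with h | h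
        · rw [h, one_mul]
        · rw [h, hζζ]
      have hccen := mem_center_iff.mp (hZc hc)
      symm
      calc a * (x * x) = (a * x) * x := by group
        _ = c * (x * a) * x := by rw [hcx]
        _ = c * x * (a * x) := by group
        _ = c * x * (c * (x * a)) := by rw [hcx]
        _ = c * (x * c) * (x * a) := by group
        _ = c * (c * x) * (x * a) := by rw [hccen x]
        _ = (c * c) * (x * x * a) := by group
        _ = x * x * a := by rw [hcc, one_mul]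
    intro b hb
    exact (mem_centralizer_singleton_iff.mp (hle hb)).symm
  have hMcomm : IsMulCommutative ↥M :=
    ⟨⟨fun a b => Subtype.ext (hYN a ((hMmem a).mp a.2).1 b ((hMmem b).mp b.2).2)⟩⟩
  have hMinv : ∀ b ∈ M, b * b = 1 → b ∈ zpowers ζ := hinv M hMchar hMcomm
  by_contra hcon
  push Not at hcon
  obtain ⟨x, hx⟩ := hcon
  rw [pow_two] at hx
  have hNZ : ¬ N ≤ zpowers ζ := fun h => hx (h (hsqN x))
  obtain ⟨m, hmN, hmZ, hmc⟩ := exists_central_mod N (zpowers ζ) hNZ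
  have hmM : m ∈ M := (hMmem m).mpr ⟨hmc, hmN⟩
  have hm2 : m * m = ζ := by
    have h1 : m * m ∈ zpowers ζ := hMinv _ (M.mul_mem hmM hmM) (h4' m)
    rcases mem_zpowers_of_sq hζζ h1 with h | h
    · exact absurd (hMinv m hmM h) hmZ
    · exact h
  have hZM : zpowers ζ ≤ M := by
    rw [zpowers_le, ← hm2]; exact M.mul_mem hmM hmM
  have hNM : ¬ N ≤ M := fun h => hx (hMinv _ (h (hsqN x)) (h4' x))
  obtain ⟨y, hyN, hyM, hyc⟩ := exists_central_mod N M hNM
  obtain ⟨y', hy'N, hy'M, hy'c, hy'2⟩ : ∃ y' ∈ N, y' ∉ M ∧ (∀ t, y' * t * y'⁻¹ * t⁻¹ ∈ M) ∧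
      y' * y' ∈ M := by
    by_cases h : y * y ∈ M
    · exact ⟨y, hyN, hyM, hyc, h⟩
    · refine ⟨y * y, N.mul_mem hyN hyN, h, ?_, ?_⟩
      · intro t
        have h1 : y * y * t * (y * y)⁻¹ * t⁻¹
            = y * (y * t * y⁻¹ * t⁻¹) * y⁻¹ * (y * t * y⁻¹ * t⁻¹) := by group
        rw [h1]; exact M.mul_mem (hMn.conj_mem _ (hyc t) y) (hyc t)
      · rw [h4' y]; exact M.one_mem
  obtain ⟨f, hfN, hfM, hfc, hf2⟩ : ∃ f ∈ N, f ∉ M ∧ (∀ t, f * t * f⁻¹ * t⁻¹ ∈ M) ∧ f * f = 1 := by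
    have h1 : y' * y' ∈ zpowers ζ := hMinv _ hy'2 (h4' y')
    rcases mem_zpowers_of_sq hζζ h1 with h | h
    · exact ⟨y', hy'N, hy'M, hy'c, h⟩
    · refine ⟨y' * m, N.mul_mem hy'N hmN, ?_, ?_, ?_⟩
      · intro hcon
        apply hy'M
        have := M.mul_mem hcon (M.inv_mem hmM)
        simpa using this
      · intro t
        have h2 : y' * m * t * (y' * m)⁻¹ * t⁻¹
            = y' * (m * t * m⁻¹ * t⁻¹) * y'⁻¹ * (y' * t * y'⁻¹ * t⁻¹) := by group
        rw [h2]; exact M.mul_mem (hMn.conj_mem _ (hZM (hmc t)) y') (hy'c t)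
      · have hcm : m * y' = y' * m := hYN m hmc y' hy'N
        calc y' * m * (y' * m) = y' * (m * y') * m := by group
          _ = y' * (y' * m) * m := by rw [hcm]
          _ = (y' * y') * (m * m) := by group
          _ = 1 := by rw [h, hm2, hζζ]
  apply hfM
  rw [hMmem]
  refine ⟨fun t => ?_, hfN⟩
  obtain ⟨c, hcdef⟩ : ∃ c, c = f * t * f⁻¹ * t⁻¹ := ⟨_, rfl⟩
  rw [← hcdef]
  have hcM : c ∈ M := by rw [hcdef]; exact hfc t
  have hcf : c * f = f * c := hYN c ((hMmem c).mp hcM).1 f hfN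
  have hcf' : f * c⁻¹ = c⁻¹ * f := by
    calc f * c⁻¹ = c⁻¹ * (c * f) * c⁻¹ := by group
      _ = c⁻¹ * (f * c) * c⁻¹ := by rw [hcf]
      _ = c⁻¹ * f := by group
  have h1 : t * f * t⁻¹ = c⁻¹ * f := by rw [hcdef]; group
  have h2 : (c⁻¹ * f) * (c⁻¹ * f) = 1 := by
    rw [← h1]
    calc t * f * t⁻¹ * (t * f * t⁻¹) = t * (f * f) * t⁻¹ := by group
      _ = 1 := by rw [hf2]; group
  have h3 : c * c = 1 := by
    have h4 : c⁻¹ * c⁻¹ = 1 := by
      calc c⁻¹ * c⁻¹ = c⁻¹ * c⁻¹ * (f * f) := by rw [hf2, mul_one]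
        _ = c⁻¹ * (c⁻¹ * f) * f := by group
        _ = c⁻¹ * (f * c⁻¹) * f := by rw [hcf']
        _ = (c⁻¹ * f) * (c⁻¹ * f) := by group
        _ = 1 := h2
    calc c * c = (c⁻¹ * c⁻¹)⁻¹ := by rw [mul_inv_rev, inv_inv]
      _ = 1 := by rw [h4, inv_one]
  exact hMinv c hcM h3

/-- Stability: if `F*(X)` is a 2-group and `ζ` a central element with `ζ² = 1`, then every element
acting trivially on `F*(X)` modulo `⟨ζ⟩` lies in `F*(X)`. -/
theorem mem_genFitting_of_stab {X : Type*} [Group X] [Finite X]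
    (hF2 : IsPGroup 2 ↥(Cfsg.generalizedFittingSubgroup X)) (ζ : X) (hζ : ζ ∈ center X)
    (hζ2 : ζ * ζ = 1) (h : X)
    (hh : ∀ q ∈ Cfsg.generalizedFittingSubgroup X, h * q * h⁻¹ * q⁻¹ ∈ zpowers ζ) :
    h ∈ Cfsg.generalizedFittingSubgroup X := by
  have hp2 : Fact (Nat.Prime 2) := ⟨Nat.prime_two⟩
  have hFn : (Cfsg.generalizedFittingSubgroup X).Normal := Cfsg.Agent.Lib.Helper28.genFitting_normal
  have hZc : zpowers ζ ≤ center X := by rw [zpowers_le]; exact hζ
  have hconj : ∀ c ∈ zpowers ζ, ∀ a : X, a * c * a⁻¹ = c := by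
    intro c hc a
    rw [mem_center_iff.mp (hZc hc) a]; group
  let K : Subgroup X :=
    { carrier := {k | ∀ q ∈ Cfsg.generalizedFittingSubgroup X, k * q * k⁻¹ * q⁻¹ ∈ zpowers ζ}
      one_mem' := by
        intro q _
        have : (1 : X) * q * 1⁻¹ * q⁻¹ = 1 := by group
        rw [this]; exact one_mem _
      mul_mem' := by
        intro a b ha hb q hq
        have h1 : a * b * q * (a * b)⁻¹ * q⁻¹
            = a * (b * q * b⁻¹ * q⁻¹) * a⁻¹ * (a * q * a⁻¹ * q⁻¹) := by group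
        rw [h1, hconj _ (hb q hq) a]
        exact mul_mem (hb q hq) (ha q hq)
      inv_mem' := by
        intro a ha q hq
        have h1 : a⁻¹ * q * a⁻¹⁻¹ * q⁻¹ = a⁻¹ * (a * q * a⁻¹ * q⁻¹)⁻¹ * a⁻¹⁻¹ := by group
        rw [h1, hconj _ (inv_mem (ha q hq)) a⁻¹]
        exact inv_mem (ha q hq) }
  have hKmem : ∀ k : X, k ∈ K ↔
      ∀ q ∈ Cfsg.generalizedFittingSubgroup X, k * q * k⁻¹ * q⁻¹ ∈ zpowers ζ := fun k => Iff.rfl
  have hKn : K.Normal := by
    refine ⟨fun n hn g => ?_⟩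
    rw [hKmem]
    intro q hq
    have hq' : g⁻¹ * q * g⁻¹⁻¹ ∈ Cfsg.generalizedFittingSubgroup X := hFn.conj_mem q hq g⁻¹
    have h1 : g * n * g⁻¹ * q * (g * n * g⁻¹)⁻¹ * q⁻¹
        = g * (n * (g⁻¹ * q * g⁻¹⁻¹) * n⁻¹ * (g⁻¹ * q * g⁻¹⁻¹)⁻¹) * g⁻¹ := by group
    rw [h1, hconj _ (hn _ hq') g]
    exact hn _ hq'
  have hK2 : IsPGroup 2 ↥K := by
    intro k
    have hkk : (k : X) * k ∈ Cfsg.generalizedFittingSubgroup X := by
      apply Cfsg.Agent.Lib.Helper28.centralizer_genFitting_le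
      rw [mem_centralizer_iff]
      intro q hq
      obtain ⟨c, hc, hcq⟩ : ∃ c ∈ zpowers ζ, (k : X) * q = c * (q * k) :=
        ⟨k * q * (k : X)⁻¹ * q⁻¹, k.2 q hq, by group⟩
      have hcc : c * c = 1 := by
        rcases mem_zpowers_of_sq hζ2 hc with h | h
        · rw [h, one_mul]
        · rw [h, hζ2]
      have hccen := mem_center_iff.mp (hZc hc)
      symm
      calc (k : X) * k * q = k * (k * q) := by group
        _ = k * (c * (q * k)) := by rw [hcq]
        _ = (k * c) * q * k := by group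
        _ = (c * k) * q * k := by rw [hccen k]
        _ = c * (k * q) * k := by group
        _ = c * (c * (q * k)) * k := by rw [hcq]
        _ = (c * c) * (q * (k * k)) := by group
        _ = q * (k * k) := by rw [hcc, one_mul]
    obtain ⟨n, hn⟩ := hF2 ⟨(k : X) * k, hkk⟩
    refine ⟨n + 1, ?_⟩
    apply Subtype.ext
    have h1 : ((k : X) * k) ^ 2 ^ n = 1 := congrArg Subtype.val hn
    change (k : X) ^ 2 ^ (n + 1) = 1
    rw [pow_succ, mul_comm, pow_mul, pow_two, h1]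
  exact Cfsg.Agent.Lib.Helper28.fitting_le_genFitting
    (Cfsg.Agent.Lib.Helper28.pCore_le_fitting (G := X) 2
      (Cfsg.Agent.Lib.Helper28.le_pCore hKn hK2 hh))

end Cfsg.Agent.Lib.Helper36
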